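import Mathlib
import Cfsg.Agent.H422.ASevenTwo

/-!
# Modules for `A₇` in characteristic 3 without fixed points for elements of order 5

A finite `A₇`-module of exponent `3` on which the elements of order `5` have no nonzero
fixed vectors is zero.
-/

set_option autoImplicit false
set_option linter.unusedSimpArgs false

namespace Cfsg.Agent.H422

open Equiv

/-- `D₁₀`: an element `x` of order 5 without fixed vectors, inverted by the involution `t`. -/
theorem dten_card_le {G V : Type*} [Group G] [AddCommGroup V] [DistribMulAction G V] [Finite V]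
    {x t : G} (hx : x ^ 5 = 1) (htx : t * x = x⁻¹ * t) (ht : t * t = 1)
    (hfp : ∀ v : V, x • v = v → v = 0) : Nat.card V ≤ Nat.card (fx V t) ^ 2 := by
  have hinj : Function.Injective (fun v : V => x • v - x⁻¹ • v) := by
    intro a b hab
    simp only at hab
    have h1 : x • (a - b) = x⁻¹ • (a - b) := by
      rw [smul_sub, smul_sub, sub_eq_sub_iff_add_eq_add]
      rw [sub_eq_sub_iff_add_eq_add] at hab
      rw [hab]
      abel
    have h2 : x ^ 2 • (a - b) = a - b := by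
      rw [pow_two, mul_smul, h1, smul_inv_smul]
    have h3 : x ^ 6 • (a - b) = a - b := by
      rw [show 6 = 2 + (2 + 2) by norm_num, pow_add, pow_add, mul_smul, mul_smul, h2, h2, h2]
    rw [show x ^ 6 = x by rw [pow_succ, hx, one_mul]] at h3
    exact sub_eq_zero.mp (hfp _ h3)
  have hsur := Finite.injective_iff_surjective.mp hinj
  have h : Function.Surjective (fun w : (fx V t) × (fx V t) => (w.1 : V) - x⁻¹ • (w.2 : V)) := by
    intro u
    obtain ⟨v, hv⟩ := hsur u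
    have e1 : ∀ v : V, t • t • v = v := fun v => by rw [← mul_smul, ht, one_smul]
    refine ⟨(⟨x • v + t • x • v, ?_⟩, ⟨v + t • v, ?_⟩), ?_⟩
    · change t • (x • v + t • x • v) = _
      rw [smul_add, e1, add_comm]
    · change t • (v + t • v) = _
      rw [smul_add, e1, add_comm]
    · simp only at hv ⊢
      rw [← hv, smul_add, ← mul_smul t, htx, mul_smul]
      abel
  have h1 := Nat.card_le_card_of_surjective _ h
  rw [Nat.card_prod] at h1
  rw [pow_two]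
  exact h1

namespace ASeven

/-- `(0 1)(2 3)` -/
def t1 : A7 := ⟨(mkP ![1,0,3,2,4,5,6] ![1,0,3,2,4,5,6] (by decide)), Perm.mem_alternatingGroup.mpr (by decide)⟩
/-- `(0 2)(1 3)` -/
def t2 : A7 := ⟨(mkP ![2,3,0,1,4,5,6] ![2,3,0,1,4,5,6] (by decide)), Perm.mem_alternatingGroup.mpr (by decide)⟩
/-- `(0 3)(1 2)` -/
def t3 : A7 := ⟨(mkP ![3,2,1,0,4,5,6] ![3,2,1,0,4,5,6] (by decide)), Perm.mem_alternatingGroup.mpr (by decide)⟩
/-- `(1 2 3)` -/
def k3 : A7 := ⟨(mkP ![0,2,3,1,4,5,6] ![0,3,1,2,4,5,6] (by decide)), Perm.mem_alternatingGroup.mpr (by decide)⟩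
/-- `(4 0 2 3 1)` -/
def z5 : A7 := ⟨(mkP ![2,4,3,1,0,5,6] ![4,3,0,2,1,5,6] (by decide)), Perm.mem_alternatingGroup.mpr (by decide)⟩
/-- `(4 5 6)` -/
def d3 : A7 := ⟨(mkP ![0,1,2,3,5,6,4] ![0,1,2,3,6,4,5] (by decide)), Perm.mem_alternatingGroup.mpr (by decide)⟩
/-- `(0 1)(4 5)` -/
def r2 : A7 := ⟨(mkP ![1,0,2,3,5,4,6] ![1,0,2,3,5,4,6] (by decide)), Perm.mem_alternatingGroup.mpr (by decide)⟩

variable {V : Type*} [AddCommGroup V] [DistribMulAction A7 V]

/-- An even permutation fixing `4, 5, 6` is in the group generated by `c, t1, t2`. -/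
theorem fix_three (g : A7) (h4 : (g : Perm (Fin 7)) 4 = 4)
    (h5 : (g : Perm (Fin 7)) 5 = 5) (h6 : (g : Perm (Fin 7)) 6 = 6) {v : V} (hc : c • v = v)
    (ht1 : t1 • v = v) (ht2 : t2 • v = v) : g • v = v := by
  have ht3 : t3 • v = v := by
    rw [show t3 = t1 * t2 by decide, mul_smul, ht2, ht1]
  have key : ∀ h : A7, (h : Perm (Fin 7)) 3 = 3 → (h : Perm (Fin 7)) 4 = 4 →
      (h : Perm (Fin 7)) 5 = 5 → (h : Perm (Fin 7)) 6 = 6 → h • v = v := by
    intro h a3 a4 a5 a6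
    rcases fix_four h a3 a4 a5 a6 with rfl | rfl | rfl
    · exact one_smul _ _
    · exact hc
    · rw [mul_smul, hc, hc]
  have h3 : (g : Perm (Fin 7)) 3 = 0 ∨ (g : Perm (Fin 7)) 3 = 1 ∨ (g : Perm (Fin 7)) 3 = 2 ∨
      (g : Perm (Fin 7)) 3 = 3 := by
    have n4 : (g : Perm (Fin 7)) 3 ≠ 4 := fun h =>
      absurd ((g : Perm (Fin 7)).injective (h.trans h4.symm)) (by decide)
    have n5 : (g : Perm (Fin 7)) 3 ≠ 5 := fun h =>
      absurd ((g : Perm (Fin 7)).injective (h.trans h5.symm)) (by decide)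
    have n6 : (g : Perm (Fin 7)) 3 ≠ 6 := fun h =>
      absurd ((g : Perm (Fin 7)).injective (h.trans h6.symm)) (by decide)
    revert n4 n5 n6
    generalize (g : Perm (Fin 7)) 3 = y
    revert y
    decide
  rcases h3 with h3 | h3 | h3 | h3
  · have := key (t3 * g) (by
      change (t3 : Perm (Fin 7)) ((g : Perm (Fin 7)) 3) = 3
      rw [h3]; rfl) (by
      change (t3 : Perm (Fin 7)) ((g : Perm (Fin 7)) 4) = 4
      rw [h4]; rfl) (by
      change (t3 : Perm (Fin 7)) ((g : Perm (Fin 7)) 5) = 5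
      rw [h5]; rfl) (by
      change (t3 : Perm (Fin 7)) ((g : Perm (Fin 7)) 6) = 6
      rw [h6]; rfl)
    rw [mul_smul] at this
    have e := congrArg (fun v => t3 • v) this
    simp only [ht3] at e
    rw [← mul_smul, show t3 * t3 = 1 by decide, one_smul] at e
    exact e
  · have := key (t2 * g) (by
      change (t2 : Perm (Fin 7)) ((g : Perm (Fin 7)) 3) = 3
      rw [h3]; rfl) (by
      change (t2 : Perm (Fin 7)) ((g : Perm (Fin 7)) 4) = 4
      rw [h4]; rfl) (by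
      change (t2 : Perm (Fin 7)) ((g : Perm (Fin 7)) 5) = 5
      rw [h5]; rfl) (by
      change (t2 : Perm (Fin 7)) ((g : Perm (Fin 7)) 6) = 6
      rw [h6]; rfl)
    rw [mul_smul] at this
    have e := congrArg (fun v => t2 • v) this
    simp only [ht2] at e
    rw [← mul_smul, show t2 * t2 = 1 by decide, one_smul] at e
    exact e
  · have := key (t1 * g) (by
      change (t1 : Perm (Fin 7)) ((g : Perm (Fin 7)) 3) = 3
      rw [h3]; rfl) (by
      change (t1 : Perm (Fin 7)) ((g : Perm (Fin 7)) 4) = 4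
      rw [h4]; rfl) (by
      change (t1 : Perm (Fin 7)) ((g : Perm (Fin 7)) 5) = 5
      rw [h5]; rfl) (by
      change (t1 : Perm (Fin 7)) ((g : Perm (Fin 7)) 6) = 6
      rw [h6]; rfl)
    rw [mul_smul] at this
    have e := congrArg (fun v => t1 • v) this
    simp only [ht1] at e
    rw [← mul_smul, show t1 * t1 = 1 by decide, one_smul] at e
    exact e
  · exact key g h3 h4 h5 h6

/-- The base points. -/
def bs3 : Fin 3 → Fin 7 := ![4, 5, 6]

/-- `T a b c`: the translate of `v` by an even permutation `4, 5, 6 ↦ a, b, c`. -/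
noncomputable def T (v : V) (a b c : Fin 7) : V := tr bs3 v ![a, b, c]

section

variable {v : V} (hc : c • v = v) (ht1 : t1 • v = v) (ht2 : t2 • v = v)

include hc ht1 ht2 in
theorem hv3 (g : A7) (hg : ∀ i, (g : Perm (Fin 7)) (bs3 i) = bs3 i) : g • v = v :=
  fix_three g (hg 0) (hg 1) (hg 2) hc ht1 ht2

include hc ht1 ht2 in
theorem T_base : T v 4 5 6 = v := tr_self (hv3 hc ht1 ht2)

include hc ht1 ht2 in
theorem T_cyc (h : d3 • v = v) (a b c : Fin 7) : T v b c a = T v a b c := by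
  have := tr_symm (hv3 hc ht1 ht2) d3 h (mkP (n := 3) ![1,2,0] ![2,0,1] (by decide)) (by decide)
    ![a, b, c]
  rw [show (fun i => (![a, b, c] : Fin 3 → Fin 7)
      ((mkP (n := 3) ![1,2,0] ![2,0,1] (by decide)) i)) = ![b, c, a] by
    funext i; fin_cases i <;> rfl] at this
  exact this

include hc ht1 ht2 in
theorem T_swap (h : r2 • v = v) (a b c : Fin 7) : T v b a c = T v a b c := by
  have := tr_symm (hv3 hc ht1 ht2) r2 h (swap 0 1) (by decide) ![a, b, c]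
  rw [show (fun i => (![a, b, c] : Fin 3 → Fin 7) (swap 0 1 i)) = ![b, a, c] by
    funext i; fin_cases i <;> rfl] at this
  exact this

include hc ht1 ht2 in
theorem T_swap_neg (h : r2 • v = -v) (a b c : Fin 7) : T v b a c = - T v a b c := by
  have := tr_symm_neg (hv3 hc ht1 ht2) r2 h (swap 0 1) (by decide) ![a, b, c]
  rw [show (fun i => (![a, b, c] : Fin 3 → Fin 7) (swap 0 1 i)) = ![b, a, c] by
    funext i; fin_cases i <;> rfl] at this
  exact this

variable (h5 : Fpf A7 V 5)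

include hc ht1 ht2 h5 in
theorem star (σ : Perm (Fin 7)) :
    T v (σ 0) (σ 5) (σ 6) + T v (σ 1) (σ 5) (σ 6) + T v (σ 2) (σ 5) (σ 6)
      + T v (σ 3) (σ 5) (σ 6) + T v (σ 4) (σ 5) (σ 6) = 0 := by
  have h := pent (hv3 hc ht1 ht2) h5 (u := 0) (w := 1) (by decide) (by decide) (by decide) x5
    orderOf_x5 (mkP ![4,1,2,3,0,5,6] ![4,1,2,3,0,5,6] (by decide)) σ
  simp only [Finset.sum_range_succ, Finset.sum_range_zero, zero_add] at h
  rw [← h]
  unfold T
  congr 1; congr 1; congr 1; congr 1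
  all_goals
    congr 1
    funext i
    fin_cases i <;> rfl

include hc ht1 ht2 h5 in
theorem pentC (σ : Perm (Fin 7)) :
    T v (σ 0) (σ 1) (σ 6) + T v (σ 1) (σ 2) (σ 6) + T v (σ 2) (σ 3) (σ 6)
      + T v (σ 3) (σ 4) (σ 6) + T v (σ 4) (σ 0) (σ 6) = 0 := by
  have h := pent (hv3 hc ht1 ht2) h5 (u := 0) (w := 1) (by decide) (by decide) (by decide) x5
    orderOf_x5 (mkP ![4,5,2,3,0,1,6] ![4,5,2,3,0,1,6] (by decide)) σ
  simp only [Finset.sum_range_succ, Finset.sum_range_zero, zero_add] at h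
  rw [← h]
  unfold T
  congr 1; congr 1; congr 1; congr 1
  all_goals
    congr 1
    funext i
    fin_cases i <;> rfl

variable (h3 : ∀ v : V, v + v + v = 0)


include hc ht1 ht2 h5 h3 in
/-- the sum over four of the five points -/
theorem star4 (hr : r2 • v = v) (σ : Perm (Fin 7)) :
    T v (σ 0) (σ 1) (σ 6) + T v (σ 0) (σ 2) (σ 6) + T v (σ 0) (σ 3) (σ 6) + T v (σ 0) (σ 4) (σ 6)
      = 0 := by
  let _m : Module (ZMod 3) V :=
    AddCommGroup.zmodModule (n := 3) (by intro x; rw [← h3 x]; abel)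
  have sw := T_swap hc ht1 ht2 hr
  have p0 : T v (σ 0) (σ 1) (σ 6) + T v (σ 1) (σ 2) (σ 6) + T v (σ 2) (σ 3) (σ 6) + T v (σ 3) (σ 4) (σ 6) + T v (σ 4) (σ 0) (σ 6) = 0 :=
    pentC hc ht1 ht2 h5 (σ * (mkP ![0,1,2,3,4,5,6] ![0,1,2,3,4,5,6] (by decide)))
  rw [sw (σ 0) (σ 4) (σ 6)] at p0
  have p1 : T v (σ 0) (σ 1) (σ 6) + T v (σ 1) (σ 2) (σ 6) + T v (σ 2) (σ 4) (σ 6) + T v (σ 4) (σ 3) (σ 6) + T v (σ 3) (σ 0) (σ 6) = 0 :=
    pentC hc ht1 ht2 h5 (σ * (mkP ![0,1,2,4,3,5,6] ![0,1,2,4,3,5,6] (by decide)))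
  rw [sw (σ 3) (σ 4) (σ 6), sw (σ 0) (σ 3) (σ 6)] at p1
  have p2 : T v (σ 0) (σ 1) (σ 6) + T v (σ 1) (σ 3) (σ 6) + T v (σ 3) (σ 2) (σ 6) + T v (σ 2) (σ 4) (σ 6) + T v (σ 4) (σ 0) (σ 6) = 0 :=
    pentC hc ht1 ht2 h5 (σ * (mkP ![0,1,3,2,4,5,6] ![0,1,3,2,4,5,6] (by decide)))
  rw [sw (σ 2) (σ 3) (σ 6), sw (σ 0) (σ 4) (σ 6)] at p2
  have p3 : T v (σ 0) (σ 2) (σ 6) + T v (σ 2) (σ 1) (σ 6) + T v (σ 1) (σ 3) (σ 6) + T v (σ 3) (σ 4) (σ 6) + T v (σ 4) (σ 0) (σ 6) = 0 :=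
    pentC hc ht1 ht2 h5 (σ * (mkP ![0,2,1,3,4,5,6] ![0,2,1,3,4,5,6] (by decide)))
  rw [sw (σ 1) (σ 2) (σ 6), sw (σ 0) (σ 4) (σ 6)] at p3
  linear_combination (norm := (match_scalars <;> rfl)) (1 : ZMod 3) • p0 + (1 : ZMod 3) • p1 + (2 : ZMod 3) • p2 + (1 : ZMod 3) • p3

include hc ht1 ht2 h5 h3 in
/-- the symmetric case -/
theorem eq_zero_pos (hd : d3 • v = v) (hr : r2 • v = v) : v = 0 := by
  have sw := T_swap hc ht1 ht2 hr
  have h1 : T v 0 5 6 + T v 1 5 6 + T v 2 5 6 + T v 3 5 6 + T v 4 5 6 = 0 :=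
    star hc ht1 ht2 h5 1
  have h2 : T v 5 0 6 + T v 5 1 6 + T v 5 2 6 + T v 5 3 6 = 0 :=
    star4 hc ht1 ht2 h5 h3 hr (mkP ![5,0,1,2,3,4,6] ![1,2,3,4,5,0,6] (by decide))
  rw [sw 5 0, sw 5 1, sw 5 2, sw 5 3, h2, zero_add] at h1
  rw [T_base hc ht1 ht2] at h1
  exact h1


include hc ht1 ht2 h5 h3 in
/-- the triangle relation in the antisymmetric case -/
theorem triangle_neg (hr : r2 • v = -v) (σ : Perm (Fin 7)) :
    T v (σ 0) (σ 1) (σ 6) + T v (σ 1) (σ 2) (σ 6) + T v (σ 2) (σ 0) (σ 6) = 0 := by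
  let _m : Module (ZMod 3) V :=
    AddCommGroup.zmodModule (n := 3) (by intro x; rw [← h3 x]; abel)
  have sw := T_swap_neg hc ht1 ht2 hr
  have p0 : T v (σ 0) (σ 1) (σ 6) + T v (σ 1) (σ 3) (σ 6) + T v (σ 3) (σ 2) (σ 6) + T v (σ 2) (σ 4) (σ 6) + T v (σ 4) (σ 0) (σ 6) = 0 :=
    pentC hc ht1 ht2 h5 (σ * (mkP ![0,1,3,2,4,5,6] ![0,1,3,2,4,5,6] (by decide)))
  rw [sw (σ 2) (σ 3) (σ 6), sw (σ 0) (σ 4) (σ 6)] at p0
  have p1 : T v (σ 0) (σ 2) (σ 6) + T v (σ 2) (σ 4) (σ 6) + T v (σ 4) (σ 1) (σ 6) + T v (σ 1) (σ 3) (σ 6) + T v (σ 3) (σ 0) (σ 6) = 0 :=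
    pentC hc ht1 ht2 h5 (σ * (mkP ![0,2,4,1,3,5,6] ![0,3,1,4,2,5,6] (by decide)))
  rw [sw (σ 1) (σ 4) (σ 6), sw (σ 0) (σ 3) (σ 6)] at p1
  have p2 : T v (σ 0) (σ 3) (σ 6) + T v (σ 3) (σ 2) (σ 6) + T v (σ 2) (σ 1) (σ 6) + T v (σ 1) (σ 4) (σ 6) + T v (σ 4) (σ 0) (σ 6) = 0 :=
    pentC hc ht1 ht2 h5 (σ * (mkP ![0,3,2,1,4,5,6] ![0,3,2,1,4,5,6] (by decide)))
  rw [sw (σ 2) (σ 3) (σ 6), sw (σ 1) (σ 2) (σ 6), sw (σ 0) (σ 4) (σ 6)] at p2
  rw [sw (σ 0) (σ 2) (σ 6)]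
  linear_combination (norm := (match_scalars <;> rfl)) (1 : ZMod 3) • p0 + (2 : ZMod 3) • p1 + (2 : ZMod 3) • p2

include hc ht1 ht2 h5 h3 in
theorem flip_neg (hd : d3 • v = v) (hr : r2 • v = -v) (σ : Perm (Fin 7)) :
    T v (σ 1) (σ 2) (σ 6) = - T v (σ 1) (σ 2) (σ 0) := by
  have sw := T_swap_neg hc ht1 ht2 hr
  have cy := T_cyc hc ht1 ht2 hd
  have h1 := triangle_neg hc ht1 ht2 h5 h3 hr σ
  have h2 : T v (σ 1) (σ 2) (σ 0) + T v (σ 2) (σ 6) (σ 0) + T v (σ 6) (σ 1) (σ 0) = 0 :=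
    triangle_neg hc ht1 ht2 h5 h3 hr (σ * (mkP ![1,2,6,3,4,5,0] ![6,0,1,3,4,5,2] (by decide)))
  -- `T 2 6 0 = - T 2 0 6`, `T 6 1 0 = - T 0 1 6`
  have e1 : T v (σ 2) (σ 6) (σ 0) = - T v (σ 2) (σ 0) (σ 6) := by
    rw [cy (σ 0) (σ 2) (σ 6), sw (σ 2) (σ 0) (σ 6)]
  have e2 : T v (σ 6) (σ 1) (σ 0) = - T v (σ 0) (σ 1) (σ 6) := by
    rw [cy (σ 0) (σ 6) (σ 1), ← cy (σ 0) (σ 6) (σ 1), sw (σ 1) (σ 6) (σ 0), cy (σ 0) (σ 1) (σ 6)]
  rw [e1, e2] at h2
  have h4 := congrArg₂ (· + ·) h1 h2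
  simp only [add_zero] at h4
  rw [eq_neg_iff_add_eq_zero, ← h4]
  abel

include hc ht1 ht2 h5 h3 in
/-- the antisymmetric case -/
theorem eq_zero_neg (hd : d3 • v = v) (hr : r2 • v = -v) : v = 0 := by
  have h1 : T v 4 5 6 = - T v 4 5 0 :=
    flip_neg hc ht1 ht2 h5 h3 hd hr (mkP ![0,4,5,3,1,2,6] ![0,4,5,3,1,2,6] (by decide))
  have h2 : T v 4 5 0 = - T v 4 5 1 :=
    flip_neg hc ht1 ht2 h5 h3 hd hr (mkP ![1,4,5,3,6,2,0] ![6,0,5,3,1,2,4] (by decide))
  have h4 : T v 4 5 1 = - T v 4 5 6 :=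
    flip_neg hc ht1 ht2 h5 h3 hd hr (mkP ![6,4,5,3,0,2,1] ![4,6,5,3,1,2,0] (by decide))
  rw [h2, h4, neg_neg, T_base hc ht1 ht2] at h1
  -- `v = - v`
  have h6 := h3 v
  rw [h1] at h6
  have h7 : v + v = 0 := by
    nth_rewrite 1 [h1]
    exact neg_add_cancel v
  have h8 := h3 v
  rw [h7, zero_add] at h8
  exact h8

end


variable (h5 : Fpf A7 V 5) (h3 : ∀ v : V, v + v + v = 0)

include h5 h3 in
/-- `C_V(E) ≠ 0` -/
theorem exists_fixed_E [Finite V] (hne : ∃ v : V, v ≠ 0) :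
    ∃ v : V, v ≠ 0 ∧ t1 • v = v ∧ t2 • v = v := by
  by_contra hno
  push Not at hno
  have hE : ∀ v : V, t1 • v = v → t2 • v = v → v = 0 := by
    intro v h1 h2
    by_contra h
    exact hno v h h1 h2
  have oz : orderOf z5 = 5 := by
    have : Fact (Nat.Prime 5) := ⟨by norm_num⟩
    exact orderOf_eq_prime (Subtype.ext (by decide)) (by decide)
  have hz : z5 ^ 5 = 1 := orderOf_dvd_iff_pow_eq_one.mp (by rw [oz])
  have hA := dten_card_le (V := V) (x := z5) (t := t1) hz (by decide) (by decide) (h5 z5 oz)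
  have c12 : ∀ u : V, t1 • t2 • u = t2 • t1 • u := fun u => sm (by decide) u
  have t3e : ∀ u : V, t3 • u = t1 • t2 • u := fun u => by
    rw [← mul_smul, show t1 * t2 = t3 by decide]
  have i1 : ∀ u : V, t1 • t1 • u = u := fun u => by
    rw [← mul_smul, show t1 * t1 = 1 by decide, one_smul]
  have i2 : ∀ u : V, t2 • t2 • u = u := fun u => by
    rw [← mul_smul, show t2 * t2 = 1 by decide, one_smul]
  have a2 : ∀ u : V, t2 • u = u → t1 • u = -u := by
    intro u hu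
    have := hE (u + t1 • u) (by rw [smul_add, i1, add_comm]) (by rw [smul_add, ← c12, hu])
    exact (neg_eq_of_add_eq_zero_right this).symm
  have a3 : ∀ u : V, t3 • u = u → t1 • u = -u := by
    intro u hu
    have := hE (u + t1 • u) (by rw [smul_add, i1, add_comm]) (by
      rw [t3e] at hu
      have e1 : t2 • u = t1 • u := by
        have := congrArg (fun v => t1 • v) hu
        simpa only [i1] using this
      rw [smul_add, e1, ← c12, hu, add_comm])
    exact (neg_eq_of_add_eq_zero_right this).symm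
  have a1 : ∀ u : V, t1 • u = u → t2 • u = -u := by
    intro u hu
    have := hE (u + t2 • u) (by rw [smul_add, c12, hu]) (by rw [smul_add, i2, add_comm])
    exact (neg_eq_of_add_eq_zero_right this).symm
  have a3' : ∀ u : V, t3 • u = u → t2 • u = -u := by
    intro u hu
    rw [← a3 u hu]
    rw [t3e] at hu
    have := congrArg (fun v => t1 • v) hu
    simpa only [i1] using this
  have hinj : Function.Injective (fun w : (fx V t1) × (fx V t2) × (fx V t3) =>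
      (w.1 : V) + (w.2.1 : V) + (w.2.2 : V)) := by
    rintro ⟨⟨u1, m1⟩, ⟨u2, m2⟩, ⟨u3, m3⟩⟩ ⟨⟨v1, n1⟩, ⟨v2, n2⟩, ⟨v3, n3⟩⟩ h
    simp only at h
    have dbl : ∀ u : V, u + u = 0 → u = 0 := by
      intro u hu
      have := h3 u
      rwa [hu, zero_add] at this
    have e0 : (u1 - v1) + (u2 - v2) + (u3 - v3) = 0 := by
      rw [← sub_eq_zero.mpr h]; abel
    have s1 : t1 • (u1 - v1) = u1 - v1 := sub_mem (H := fx V t1) m1 n1
    have s2 : t2 • (u2 - v2) = u2 - v2 := sub_mem (H := fx V t2) m2 n2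
    have s3' : t3 • (u3 - v3) = u3 - v3 := sub_mem (H := fx V t3) m3 n3
    have e1 := congrArg (fun v => t1 • v) e0
    simp only [smul_add, smul_zero] at e1
    rw [s1, a2 _ s2, a3 _ s3'] at e1
    have e2 := congrArg (fun v => t2 • v) e0
    simp only [smul_add, smul_zero] at e2
    rw [s2, a1 _ s1, a3' _ s3'] at e2
    have z1 : u1 - v1 = 0 := dbl _ (by
      have := congrArg₂ (· + ·) e0 e1
      simp only [add_zero] at this
      rw [← this]; abel)
    have z2 : u2 - v2 = 0 := dbl _ (by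
      have := congrArg₂ (· + ·) e0 e2
      simp only [add_zero] at this
      rw [← this]; abel)
    rw [z1, z2, zero_add, zero_add] at e0
    rw [sub_eq_zero] at z1 z2 e0
    subst z1 z2 e0
    rfl
  have hB := Nat.card_le_card_of_injective _ hinj
  rw [Nat.card_prod, Nat.card_prod] at hB
  have card_conj : ∀ (g s s' : A7), s' * g = g * s → Nat.card (fx V s') = Nat.card (fx V s) := by
    intro g s s' hg
    refine Nat.card_congr ⟨fun w => ⟨g⁻¹ • (w : V), ?_⟩, fun w => ⟨g • (w : V), ?_⟩, ?_, ?_⟩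
    · change s • g⁻¹ • (w : V) = g⁻¹ • (w : V)
      rw [← mul_smul, show s * g⁻¹ = g⁻¹ * s' by
        rw [eq_inv_mul_iff_mul_eq, ← mul_assoc, ← hg, mul_inv_cancel_right], mul_smul]
      congr 1
      exact w.2
    · change s' • g • (w : V) = g • (w : V)
      rw [← mul_smul, hg, mul_smul]
      congr 1
      exact w.2
    · intro w
      apply Subtype.ext
      simp
    · intro w
      apply Subtype.ext
      simp
  have k2 : Nat.card (fx V t2) = Nat.card (fx V t1) := card_conj k3 t1 t2 (by decide)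
  have k4 : Nat.card (fx V t3) = Nat.card (fx V t1) := card_conj (k3 * k3) t1 t3 (by decide)
  rw [k2, k4] at hB
  set k := Nat.card (fx V t1) with hk
  have hk0 : 0 < k := Nat.card_pos
  have hk1 : k = 1 := by
    have h9 : k * (k * k) ≤ k ^ 2 := hB.trans hA
    by_contra hne
    have h10 : 2 ≤ k := by omega
    nlinarith [mul_pos hk0 hk0]
  rw [hk1] at hA
  have h11 : Nat.card V ≤ 1 := by simpa using hA
  have h12 : Subsingleton V := by
    rw [← Finite.card_le_one_iff_subsingleton]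
    exact h11
  obtain ⟨v, hv⟩ := hne
  exact hv (Subsingleton.elim _ _)

include h5 h3 in
/-- **Main result**, characteristic 3. -/
theorem eq_zero_three [Finite V] (v : V) : v = 0 := by
  by_contra hv
  obtain ⟨w0, hw0, b1, b2⟩ := exists_fixed_E h5 h3 ⟨v, hv⟩
  obtain ⟨w1, ⟨⟨p1, p2⟩, p3⟩, hw1⟩ := three_step (fx V t1 ⊓ fx V t2) (fun v _ => h3 v)
    ⟨w0, ⟨b1, b2⟩, hw0⟩ c
    (fun w hw => by
      obtain ⟨a1, a2⟩ := hw
      replace a1 : t1 • w = w := a1
      replace a2 : t2 • w = w := a2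
      refine ⟨?_, ?_⟩
      · change t1 • c • w = c • w
        rw [sm (show t1 * c = c * t2 by decide), a2]
      · change t2 • c • w = c • w
        rw [sm (show t2 * c = c * (t1 * t2) by decide), mul_smul, a2, a1])
    (fun w _ => by rw [← mul_smul, ← mul_smul, show c * c * c = 1 by decide, one_smul])
  obtain ⟨w2, ⟨⟨⟨q1, q2⟩, q3⟩, q4⟩, hw2⟩ := three_step (fx V t1 ⊓ fx V t2 ⊓ fx V c)
    (fun v _ => h3 v) ⟨w1, ⟨⟨p1, p2⟩, p3⟩, hw1⟩ d3
    (fun w hw => by
      obtain ⟨⟨a1, a2⟩, a3⟩ := hw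
      replace a1 : t1 • w = w := a1
      replace a2 : t2 • w = w := a2
      replace a3 : c • w = w := a3
      refine ⟨⟨?_, ?_⟩, ?_⟩
      · change t1 • d3 • w = d3 • w
        rw [sm (show t1 * d3 = d3 * t1 by decide), a1]
      · change t2 • d3 • w = d3 • w
        rw [sm (show t2 * d3 = d3 * t2 by decide), a2]
      · change c • d3 • w = d3 • w
        rw [sm (show c * d3 = d3 * c by decide), a3])
    (fun w _ => by rw [← mul_smul, ← mul_smul, show d3 * d3 * d3 = 1 by decide, one_smul])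
  replace q1 : t1 • w2 = w2 := q1
  replace q2 : t2 • w2 = w2 := q2
  replace q3 : c • w2 = w2 := q3
  replace q4 : d3 • w2 = w2 := q4
  by_cases h : w2 + r2 • w2 = 0
  · exact hw2 (eq_zero_neg q3 q1 q2 h5 h3 q4 (neg_eq_of_add_eq_zero_right h).symm)
  · apply h
    refine eq_zero_pos ?_ ?_ ?_ h5 h3 ?_ ?_
    · rw [smul_add, sm (show c * r2 = r2 * (c * c) by decide), mul_smul, q3, q3]
    · rw [smul_add, sm (show t1 * r2 = r2 * t1 by decide), q1]
    · rw [smul_add, sm (show t2 * r2 = r2 * (t1 * t2) by decide), mul_smul, q2, q1]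
    · rw [smul_add, sm (show d3 * r2 = r2 * (d3 * d3) by decide), mul_smul, q4, q4]
    · rw [smul_add, ← mul_smul, show r2 * r2 = 1 by decide, one_smul, add_comm]

end ASeven

end Cfsg.Agent.H422
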