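import Cfsg.Agent.H422.Recur
import Cfsg.Agent.Lib.FieldFour

/-!
# Element orders of `PSL₃(4)`

Every element `X` of `SL₃(4)` has a scalar power `X ^ k` with `k ∈ {3, 4, 5, 7}`.
-/

set_option autoImplicit false

namespace Cfsg.Agent.H422.LThree

open Matrix Cfsg.Agent.Lib.FieldFour Cfsg.Agent.H422.Recur

theorem check : ∀ a b : F4, ∃ k ∈ [3, 4, 5, 7], (co3 a b 1 k).1 = 0 ∧ (co3 a b 1 k).2.1 = 0 := by
  decide +kernel

theorem check_herm : ∀ a : F4, ∃ k ∈ [3, 4], (co3 a (a * a) 1 k).1 = 0 ∧ (co3 a (a * a) 1 k).2.1 = 0 := by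
  decide +kernel

theorem neg_eq : ∀ a : F4, -a = a := by decide

theorem sl_pow (X : Matrix (Fin 3) (Fin 3) F4) (hX : X.det = 1) :
    ∃ k ∈ [3, 4, 5, 7], ∃ r : F4, X ^ k = r • (1 : Matrix (Fin 3) (Fin 3) F4) := by
  have h := ch3 X
  rw [hX, neg_eq] at h
  obtain ⟨k, hk, h1, h2⟩ := check X.trace (adjugate X).trace
  exact ⟨k, hk, scalar_co3 h h1 h2⟩

theorem sl_pow_herm (X : Matrix (Fin 3) (Fin 3) F4) (hX : X.det = 1)
    (ht : (adjugate X).trace = X.trace * X.trace) :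
    ∃ k ∈ [3, 4], ∃ r : F4, X ^ k = r • (1 : Matrix (Fin 3) (Fin 3) F4) := by
  have h := ch3 X
  rw [hX, neg_eq, ht] at h
  obtain ⟨k, hk, h1, h2⟩ := check_herm X.trace
  exact ⟨k, hk, scalar_co3 h h1 h2⟩

theorem mem_center_of_scalar {n : ℕ} {F : Type*} [Field F] {g : SpecialLinearGroup (Fin n) F} {r : F}
    (h : (g : Matrix (Fin n) (Fin n) F) = r • (1 : Matrix (Fin n) (Fin n) F)) :
    g ∈ Subgroup.center (SpecialLinearGroup (Fin n) F) := by
  rw [Subgroup.mem_center_iff]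
  intro x
  apply Subtype.ext
  change (x : Matrix (Fin n) (Fin n) F) * (g : Matrix (Fin n) (Fin n) F) =
    (g : Matrix (Fin n) (Fin n) F) * (x : Matrix (Fin n) (Fin n) F)
  rw [h, Matrix.mul_smul, Matrix.smul_mul, mul_one, one_mul]

theorem psl_pow (g : ProjectiveSpecialLinearGroup (Fin 3) F4) : ∃ k ∈ [3, 4, 5, 7], g ^ k = 1 := by
  obtain ⟨X, rfl⟩ := QuotientGroup.mk_surjective g
  obtain ⟨k, hk, r, hr⟩ := sl_pow X.1 X.2
  refine ⟨k, hk, ?_⟩
  rw [← QuotientGroup.mk_pow, QuotientGroup.eq_one_iff]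
  exact mem_center_of_scalar (r := r) ((Matrix.SpecialLinearGroup.coe_pow X k).trans hr)

end Cfsg.Agent.H422.LThree
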