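import Cfsg.Agent.H422.LThreeElts
import Cfsg.Agent.H422.LThreeOrders

/-!
# Almost simple groups over `PSL₃(4)` with the prime graph of `A₇`

`eq_K`: a subgroup of `Aut(PSL₃(4))` containing the inner automorphisms, with an element of order 6
and without elements of orders 10, 14, 15, is `PSL₃(4).2₁`.
-/

set_option autoImplicit false

namespace Cfsg.Agent.H422.LThree

open Matrix Cfsg.Agent.Lib.FieldFour Cfsg.Agent.H422.AutBase
open Cfsg.Agent.ClassicalGeometry.AutPSL.Root
open Cfsg.Agent.ClassicalGeometry.AutPSL.Auto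
open Cfsg.Agent.ClassicalGeometry.AutPSL.Main

theorem inn_of_det {A : GL (Fin 3) F4} (h : (A : M3).det = 1) : lift (cj A) ∈ Inn T :=
  mem_inn (r := 1) one_ne_zero (by rw [one_pow, h])

theorem det_mul_inv {A B : GL (Fin 3) F4} (h : (A : M3).det = (B : M3).det) :
    ((A * B⁻¹ : GL (Fin 3) F4) : M3).det = 1 := by
  rw [Units.val_mul, det_mul, h, ← det_mul, ← Units.val_mul, mul_inv_cancel, Units.val_one, det_one]

theorem det_ne_zero' (A : GL (Fin 3) F4) : (A : M3).det ≠ 0 := by
  intro h
  have h1 : ((A * A⁻¹ : GL (Fin 3) F4) : M3).det = 1 := by rw [mul_inv_cancel, Units.val_one, det_one]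
  rw [Units.val_mul, det_mul, h, zero_mul] at h1
  exact zero_ne_one h1

theorem cases4 : ∀ x : F4, x ≠ 0 → x = 1 ∨ x = F4.w ∨ x * x = F4.w := by decide

theorem map_det (A : GL (Fin 3) F4) :
    ((Matrix.GeneralLinearGroup.map (fr : F4 →+* F4) A : GL (Fin 3) F4) : M3).det =
      (A : M3).det * (A : M3).det := by
  change ((fr : F4 →+* F4).mapMatrix (A : M3)).det = _
  rw [← RingHom.map_det]
  rfl

theorem det_inv (A : GL (Fin 3) F4) : ((A⁻¹ : GL (Fin 3) F4) : M3).det = ((A : M3).det) * (A : M3).det := by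
  have h1 : ((A * A⁻¹ : GL (Fin 3) F4) : M3).det = 1 := by rw [mul_inv_cancel, Units.val_one, det_one]
  rw [Units.val_mul, det_mul] at h1
  have h0 := det_ne_zero' A
  revert h0 h1
  generalize (A : M3).det = x
  generalize ((A⁻¹ : GL (Fin 3) F4) : M3).det = y
  revert x y
  decide

theorem det_it (A : GL (Fin 3) F4) : ((it A : GL (Fin 3) F4) : M3).det = ((A : M3).det) * (A : M3).det := by
  rw [coe_it, det_transpose, det_inv]

theorem orderOf_conj' {G : Type*} [Group G] (c x : G) : orderOf (c * x * c⁻¹) = orderOf x :=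
  MulEquiv.orderOf_eq (MulAut.conj c) x

section main

variable {H : Subgroup (MulAut T)} (hI : Inn T ≤ H)
include hI

theorem mem_of_det {A B : GL (Fin 3) F4} (h : (A : M3).det = (B : M3).det) {x : MulAut T}
    (hB : lift (cj B) * x ∈ H) : lift (cj A) * x ∈ H := by
  have h1 : lift (cj A) * x = lift (cj (A * B⁻¹)) * (lift (cj B) * x) := by
    rw [map_mul cj, map_mul lift, map_inv, map_inv, mul_assoc, ← mul_assoc (lift (cj B))⁻¹,
      inv_mul_cancel, one_mul]
  rw [h1]
  exact H.mul_mem (hI (inn_of_det (det_mul_inv h))) hB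

theorem det_eq_one (h15 : ∀ g ∈ H, orderOf g ≠ 3 * 5) {A : GL (Fin 3) F4} (hA : lift (cj A) ∈ H) :
    (A : M3).det = 1 := by
  have key : ∀ B : GL (Fin 3) F4, lift (cj B) ∈ H → (B : M3).det = F4.w → False := by
    intro B hB hw
    apply h15 _ _ order_D
    have h1 := mem_of_det hI (A := gD) (B := B) (x := 1) (by rw [hw]; decide +kernel)
      (by rw [mul_one]; exact hB)
    rwa [mul_one] at h1
  rcases cases4 _ (det_ne_zero' A) with h | h | h
  · exact h
  · exact (key A hA h).elim
  · refine (key (A * A) ?_ ?_).elim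
    · rw [map_mul cj, map_mul lift]
      exact H.mul_mem hA hA
    · rw [Units.val_mul, det_mul, h]

/-- no field automorphisms -/
theorem no_field (h14 : ∀ g ∈ H, orderOf g ≠ 2 * 7) {A : GL (Fin 3) F4}
    (hA : lift (cj A * fld fr) ∈ H) : False := by
  -- conjugate `fld fr` by `C`
  let d := (A : M3).det * (A : M3).det
  have hd : d ≠ 0 := mul_ne_zero (det_ne_zero' A) (det_ne_zero' A)
  let C := gd d hd
  have hC : (C : M3).det = d := by
    change (!![d, .o, .o; .o, .i, .o; .o, .o, .i] : M3).det = d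
    generalize d = e
    revert e
    decide +kernel
  have h1 : lift (cj C) * lift (fld fr) * (lift (cj C))⁻¹ ∈ H := by
    have h2 : lift (cj C) * lift (fld fr) * (lift (cj C))⁻¹ =
        lift (cj (C * Matrix.GeneralLinearGroup.map (fr : F4 →+* F4) C⁻¹)) * lift (fld fr) := by
      rw [← map_inv, ← map_inv, mul_assoc, ← map_mul lift, fld_cj, map_mul lift, ← mul_assoc,
        ← map_mul lift, ← map_mul cj]
    rw [h2]
    refine mem_of_det hI (B := A) ?_ (by rw [← map_mul]; exact hA)
    rw [Units.val_mul, det_mul, map_det, det_inv, hC]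
    change (A : M3).det * (A : M3).det * ((A : M3).det * (A : M3).det * ((A : M3).det * (A : M3).det) *
      ((A : M3).det * (A : M3).det * ((A : M3).det * (A : M3).det))) = _
    generalize (A : M3).det = x
    revert x
    decide
  have h2 : lift (cj C) * lift (cj gY) * (lift (cj C))⁻¹ ∈ H :=
    hI (inn_normal.conj_mem _ (inn_of_det (by decide +kernel)) _)
  apply h14 _ (H.mul_mem h1 h2)
  rw [← order_fY, ← orderOf_conj' (lift (cj C)) (lift (fld fr) * lift (cj gY))]
  congr 1
  group

/-- no graph automorphisms -/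
theorem no_graph (h10 : ∀ g ∈ H, orderOf g ≠ 2 * 5) {A : GL (Fin 3) F4}
    (hA : lift (cj A * itr) ∈ H) : False := by
  let d := (A : M3).det * (A : M3).det
  have hd : d ≠ 0 := mul_ne_zero (det_ne_zero' A) (det_ne_zero' A)
  let C := gd d hd
  have hC : (C : M3).det = d := by
    change (!![d, .o, .o; .o, .i, .o; .o, .o, .i] : M3).det = d
    generalize d = e
    revert e
    decide +kernel
  have h1 : lift (cj C) * lift itr * (lift (cj C))⁻¹ ∈ H := by
    have h2 : lift (cj C) * lift itr * (lift (cj C))⁻¹ = lift (cj (C * it C⁻¹)) * lift itr := by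
      rw [← map_inv, ← map_inv, mul_assoc, ← map_mul lift, itr_cj, map_mul lift, ← mul_assoc,
        ← map_mul lift, ← map_mul cj]
    rw [h2]
    refine mem_of_det hI (B := A) ?_ (by rw [← map_mul]; exact hA)
    rw [Units.val_mul, det_mul, det_it, det_inv, hC]
    change (A : M3).det * (A : M3).det * ((A : M3).det * (A : M3).det * ((A : M3).det * (A : M3).det) *
      ((A : M3).det * (A : M3).det * ((A : M3).det * (A : M3).det))) = _
    generalize (A : M3).det = x
    revert x
    decide
  have h2 : lift (cj C) * lift (cj gX) * (lift (cj C))⁻¹ ∈ H :=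
    hI (inn_normal.conj_mem _ (inn_of_det (by decide +kernel)) _)
  apply h10 _ (H.mul_mem h1 h2)
  rw [← order_iX, ← orderOf_conj' (lift (cj C)) (lift itr * lift (cj gX))]
  congr 1
  group

theorem cases_mem (h10 : ∀ g ∈ H, orderOf g ≠ 2 * 5) (h14 : ∀ g ∈ H, orderOf g ≠ 2 * 7)
    (h15 : ∀ g ∈ H, orderOf g ≠ 3 * 5) {α : MulAut T} (hα : α ∈ H) : α ∈ K := by
  rcases surj_three 2 le_rfl α with ⟨A, σ, rfl⟩ | ⟨A, σ, rfl⟩
  · rcases eq_fr σ with rfl | rfl
    · left
      rw [map_one fld, mul_one] at hα ⊢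
      exact inn_of_det (det_eq_one hI h15 hα)
    · exact (no_field hI h14 hα).elim
  · rcases eq_fr σ with rfl | rfl
    · rw [map_one fld, mul_one] at hα
      exact (no_graph hI h10 hα).elim
    · right
      have h1 : lift (cj A * fld fr * itr) * tau = lift (cj A) := by
        rw [tau, mul_assoc, map_mul lift, mul_assoc]
        have : tau * tau = 1 := tau_sq
        rw [tau] at this
        rw [this, mul_one]
      rw [h1]
      have h2 : lift (cj A * fld fr * itr) * lift (cj A * fld fr * itr) ∈ H := H.mul_mem hα hα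
      have h3 : lift (cj A * fld fr * itr) * lift (cj A * fld fr * itr) =
          lift (cj (A * Matrix.GeneralLinearGroup.map (fr : F4 →+* F4) (it A))) := by
        have h4 : cj A * fld fr * itr * (cj A * fld fr * itr) =
            cj (A * Matrix.GeneralLinearGroup.map (fr : F4 →+* F4) (it A)) := by
          rw [mul_assoc (cj A * fld fr), ← mul_assoc itr, ← mul_assoc itr, itr_cj, mul_assoc (cj (it A)),
            itr_fld, mul_assoc (cj (it A)), mul_assoc (fld fr), itr_mul_itr, mul_one,
            mul_assoc (cj A), ← mul_assoc (fld fr), fld_cj, mul_assoc _ (fld fr), ← map_mul fld, fr_fr,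
            map_one, mul_one, ← map_mul cj]
        rw [← map_mul lift, h4]
      rw [h3] at h2
      have h5 := det_eq_one hI h15 h2
      rw [Units.val_mul, det_mul, map_det, det_it] at h5
      apply inn_of_det
      revert h5
      have h0 := det_ne_zero' A
      revert h0
      generalize (A : M3).det = x
      revert x
      decide

omit hI in
theorem inn_pow {g : MulAut T} (hg : g ∈ Inn T) : ∃ k ∈ [3, 4, 5, 7], g ^ k = 1 := by
  obtain ⟨x, rfl⟩ := hg
  obtain ⟨k, hk, h⟩ := psl_pow x
  exact ⟨k, hk, by rw [← map_pow, h, map_one]⟩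

omit hI in
theorem not_inn_of_order {g : MulAut T} (hg : orderOf g = 2 * 3) : g ∉ Inn T := by
  intro h
  obtain ⟨k, hk, h1⟩ := inn_pow h
  have h2 := orderOf_dvd_of_pow_eq_one h1
  rw [hg] at h2
  simp only [List.mem_cons, List.not_mem_nil, or_false] at hk
  rcases hk with rfl | rfl | rfl | rfl <;> revert h2 <;> decide

/-- **Almost simple groups with socle `PSL₃(4)`.** -/
theorem eq_K (h10 : ∀ g ∈ H, orderOf g ≠ 2 * 5) (h14 : ∀ g ∈ H, orderOf g ≠ 2 * 7)
    (h15 : ∀ g ∈ H, orderOf g ≠ 3 * 5) (h6 : ∃ g ∈ H, orderOf g = 2 * 3) : H = K := by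
  have h1 : H ≤ K := fun α hα => cases_mem hI h10 h14 h15 hα
  obtain ⟨g, hg, h6⟩ := h6
  have h2 : tau ∈ H := by
    rcases h1 hg with h | h
    · exact absurd h (not_inn_of_order h6)
    · have h3 : tau = g⁻¹ * (g * tau) := by group
      rw [h3]
      exact H.mul_mem (H.inv_mem hg) (hI h)
  refine le_antisymm h1 ?_
  intro x hx
  rcases hx with h | h
  · exact hI h
  · have h3 : x = (x * tau) * tau⁻¹ := by group
    rw [h3]
    exact H.mul_mem (hI h) (H.inv_mem h2)

end main

end Cfsg.Agent.H422.LThree
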