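import Cfsg.Agent.H422.AutBase
import Cfsg.Agent.Lib.FieldFour
import Cfsg.Agent.H422.ElimAlt

/-!
# The group `PSL₃(4).2₁` inside `Aut(PSL₃(4))`
-/

set_option autoImplicit false

namespace Cfsg.Agent.H422.LThree

open Matrix Cfsg.Agent.Lib.FieldFour Cfsg.Agent.H422.AutBase
open Cfsg.Agent.ClassicalGeometry.AutPSL.Root
open Cfsg.Agent.ClassicalGeometry.AutPSL.Auto
open Cfsg.Agent.ClassicalGeometry.AutPSL.Main

abbrev M3 := Matrix (Fin 3) (Fin 3) F4
abbrev T := Matrix.ProjectiveSpecialLinearGroup (Fin 3) F4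

instance charP_F4 : CharP F4 2 := charP_of_card_eq_prime_pow (f := 2) F4.card

theorem sq_add : ∀ x y : F4, (x + y) * (x + y) = x * x + y * y := by decide
theorem sq_mul : ∀ x y : F4, (x * y) * (x * y) = (x * x) * (y * y) := by decide
theorem pow_four : ∀ x : F4, (x * x) * (x * x) = x := by decide

/-- the automorphism `x ↦ x ^ 2` -/
def fr : F4 ≃+* F4 where
  toFun x := x * x
  invFun x := x * x
  left_inv := pow_four
  right_inv := pow_four
  map_mul' := sq_mul
  map_add' := sq_add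

theorem fr_apply (x : F4) : fr x = x * x := rfl

theorem fr_ne_one : fr ≠ 1 := by
  intro h
  have h1 : fr F4.w = F4.w := by rw [h]; rfl
  exact absurd h1 (by decide)

theorem fr_fr : fr * fr = 1 := RingEquiv.ext pow_four

theorem eq_fr (σ : F4 ≃+* F4) : σ = 1 ∨ σ = fr := by
  have h0 : σ F4.o = F4.o := map_zero σ
  have h1 : σ F4.i = F4.i := map_one σ
  have hv : σ F4.v = σ F4.w * σ F4.w := by
    rw [← map_mul]; rfl
  have hw : σ F4.w = F4.w ∨ σ F4.w = F4.v := by
    have e0 : σ F4.w ≠ F4.o := fun h => absurd (σ.injective (h.trans h0.symm)) (by decide)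
    have e1 : σ F4.w ≠ F4.i := fun h => absurd (σ.injective (h.trans h1.symm)) (by decide)
    revert e0 e1
    generalize σ F4.w = x
    revert x
    decide
  rcases hw with hw | hw
  · left
    apply RingEquiv.ext
    intro x
    rw [hw] at hv
    cases x
    · exact h0
    · exact h1
    · exact hw
    · exact hv
  · right
    apply RingEquiv.ext
    intro x
    rw [hw] at hv
    cases x
    · exact h0
    · exact h1
    · exact hw
    · exact hv

def gD : GL (Fin 3) F4 := ⟨!![.o, .w, .o; .i, .i, .o; .o, .o, .i], !![.v, .i, .o; .v, .o, .o; .o, .o, .i], by decide +kernel, by decide +kernel⟩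
def gY : GL (Fin 3) F4 := ⟨!![.o, .o, .i; .i, .o, .i; .o, .i, .o], !![.i, .i, .o; .o, .o, .i; .i, .o, .o], by decide +kernel, by decide +kernel⟩
def gX : GL (Fin 3) F4 := ⟨!![.o, .o, .i; .w, .v, .o; .v, .w, .o], !![.o, .w, .v; .o, .v, .w; .i, .o, .o], by decide +kernel, by decide +kernel⟩
def gE : GL (Fin 3) F4 := ⟨!![.i, .o, .o; .o, .w, .o; .o, .o, .v], !![.i, .o, .o; .o, .v, .o; .o, .o, .w], by decide +kernel, by decide +kernel⟩
/-- `diag(d, 1, 1)` -/
def gd (d : F4) (hd : d ≠ 0) : GL (Fin 3) F4 := ⟨!![d, .o, .o; .o, .i, .o; .o, .o, .i],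
  !![d * d, .o, .o; .o, .i, .o; .o, .o, .i], by revert d; decide +kernel, by revert d; decide +kernel⟩

theorem gD_pow2 : ((gD ^ 2 : GL (Fin 3) F4) : M3) = !![.w, .w, .o; .i, .v, .o; .o, .o, .i] := by
  rw [pow_two]; decide +kernel
theorem gD_pow3 : ((gD ^ 3 : GL (Fin 3) F4) : M3) = !![.w, .i, .o; .v, .i, .o; .o, .o, .i] := by
  rw [pow_succ, Units.val_mul, gD_pow2]; decide +kernel
theorem gD_pow5 : ((gD ^ 5 : GL (Fin 3) F4) : M3) = !![.w, .o, .o; .o, .w, .o; .o, .o, .i] := by
  rw [show 5 = 3 + 2 from rfl, pow_add, Units.val_mul, gD_pow3, gD_pow2]; decide +kernel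
theorem gD_pow10 : ((gD ^ 10 : GL (Fin 3) F4) : M3) = !![.v, .o, .o; .o, .v, .o; .o, .o, .i] := by
  rw [show 10 = 5 + 5 from rfl, pow_add, Units.val_mul, gD_pow5]; decide +kernel
theorem gD_pow15 : ((gD ^ 15 : GL (Fin 3) F4) : M3) = !![.i, .o, .o; .o, .i, .o; .o, .o, .i] := by
  rw [show 15 = 10 + 5 from rfl, pow_add, Units.val_mul, gD_pow10, gD_pow5]; decide +kernel
theorem gY_pow2 : ((gY ^ 2 : GL (Fin 3) F4) : M3) = !![.o, .i, .o; .o, .i, .i; .i, .o, .i] := by
  rw [pow_two]; decide +kernel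
theorem gY_pow3 : ((gY ^ 3 : GL (Fin 3) F4) : M3) = !![.i, .o, .i; .i, .i, .i; .o, .i, .i] := by
  rw [pow_succ, Units.val_mul, gY_pow2]; decide +kernel
theorem gY_pow6 : ((gY ^ 6 : GL (Fin 3) F4) : M3) = !![.i, .i, .o; .o, .o, .i; .i, .o, .o] := by
  rw [show 6 = 3 + 3 from rfl, pow_add, Units.val_mul, gY_pow3]; decide +kernel
theorem gY_pow7 : ((gY ^ 7 : GL (Fin 3) F4) : M3) = !![.i, .o, .o; .o, .i, .o; .o, .o, .i] := by
  rw [pow_succ, Units.val_mul, gY_pow6]; decide +kernel
theorem gX_pow2 : ((gX ^ 2 : GL (Fin 3) F4) : M3) = !![.v, .w, .o; .i, .w, .w; .v, .i, .v] := by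
  rw [pow_two]; decide +kernel
theorem gX_pow4 : ((gX ^ 4 : GL (Fin 3) F4) : M3) = !![.o, .w, .v; .o, .v, .w; .i, .o, .o] := by
  rw [show 4 = 2 + 2 from rfl, pow_add, Units.val_mul, gX_pow2]; decide +kernel
theorem gX_pow5 : ((gX ^ 5 : GL (Fin 3) F4) : M3) = !![.i, .o, .o; .o, .i, .o; .o, .o, .i] := by
  rw [pow_succ, Units.val_mul, gX_pow4]; decide +kernel
theorem gE_pow2 : ((gE ^ 2 : GL (Fin 3) F4) : M3) = !![.i, .o, .o; .o, .v, .o; .o, .o, .w] := by
  rw [pow_two]; decide +kernel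
theorem gE_pow3 : ((gE ^ 3 : GL (Fin 3) F4) : M3) = !![.i, .o, .o; .o, .i, .o; .o, .o, .i] := by
  rw [pow_succ, Units.val_mul, gE_pow2]; decide +kernel

theorem lift_cj_eq_one {C : GL (Fin 3) F4} (h : lift (cj C) = 1) : ∃ r : F4, scalar (Fin 3) r = (C : M3) := by
  have h1 : lift (cj C * fld (1 : F4 ≃+* F4)) = lift (fld (1 : F4 ≃+* F4)) := by
    rw [map_one fld, mul_one, h, map_one]
  exact (injective_aux h1).1

theorem not_scalar {A : M3} (h : ∀ r : F4, A ≠ Matrix.diagonal fun _ => r) {C : GL (Fin 3) F4} (hC : (C : M3) = A) :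
    lift (cj C) ≠ 1 := by
  intro h1
  obtain ⟨r, hr⟩ := lift_cj_eq_one h1
  apply h r
  rw [← hC, ← hr, scalar_apply]

theorem lift_pow (C : GL (Fin 3) F4) (n : ℕ) : (lift (cj C)) ^ n = lift (cj (C ^ n)) := by
  rw [map_pow cj, map_pow lift]

theorem order_D : orderOf (lift (cj gD)) = 3 * 5 := by
  refine Cfsg.Agent.H422.Elim.orderOf_pq (by norm_num) (by norm_num) ?_ ?_ ?_
  · rw [lift_pow]
    refine lift_cj_scalar (r := 1) ?_
    rw [show 3 * 5 = 15 from rfl, gD_pow15]
    decide +kernel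
  · rw [lift_pow]
    exact not_scalar (by decide +kernel) gD_pow3
  · rw [lift_pow]
    exact not_scalar (by decide +kernel) gD_pow5

theorem order_Y : orderOf (lift (cj gY)) = 7 := by
  have : Fact (Nat.Prime 7) := ⟨by norm_num⟩
  refine orderOf_eq_prime ?_ ?_
  · rw [lift_pow]
    refine lift_cj_scalar (r := 1) ?_
    rw [gY_pow7]
    decide +kernel
  · exact not_scalar (A := !![.o, .o, .i; .i, .o, .i; .o, .i, .o]) (by decide +kernel) rfl

theorem order_X : orderOf (lift (cj gX)) = 5 := by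
  have : Fact (Nat.Prime 5) := ⟨by norm_num⟩
  refine orderOf_eq_prime ?_ ?_
  · rw [lift_pow]
    refine lift_cj_scalar (r := 1) ?_
    rw [gX_pow5]
    decide +kernel
  · exact not_scalar (A := !![.o, .o, .i; .w, .v, .o; .v, .w, .o]) (by decide +kernel) rfl

theorem order_E : orderOf (lift (cj gE)) = 3 := by
  refine orderOf_eq_prime ?_ ?_
  · rw [lift_pow]
    refine lift_cj_scalar (r := 1) ?_
    rw [gE_pow3]
    decide +kernel
  · exact not_scalar (A := !![.i, .o, .o; .o, .w, .o; .o, .o, .v]) (by decide +kernel) rfl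

theorem fld_ne : (lift (fld fr) : MulAut T) ≠ 1 := by
  intro h
  have h1 : lift (cj (1 : GL (Fin 3) F4) * fld fr) = lift (fld (1 : F4 ≃+* F4)) := by
    rw [map_one cj, one_mul, h, map_one, map_one]
  exact fr_ne_one (injective_aux h1).2

theorem order_fld : orderOf (lift (fld fr) : MulAut T) = 2 := by
  refine orderOf_eq_prime ?_ fld_ne
  rw [pow_two, ← map_mul, ← map_mul, fr_fr, map_one, map_one]

theorem order_itr : orderOf (lift itr : MulAut T) = 2 := by
  refine orderOf_eq_prime ?_ ?_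
  · rw [pow_two, ← map_mul, itr_mul_itr, map_one]
  · intro h
    have h1 : lift (cj (1 : GL (Fin 3) F4) * fld (1 : F4 ≃+* F4) * itr) = lift (fld (1 : F4 ≃+* F4)) := by
      rw [map_one cj, one_mul, map_one fld, one_mul, h, map_one]
    exact not_graph (by simp) h1

/-- the graph-field automorphism -/
def tau : MulAut T := lift (fld fr * itr)

theorem tau_sq : tau * tau = 1 := by
  rw [tau, ← map_mul, mul_assoc, ← mul_assoc itr, itr_fld, mul_assoc, itr_mul_itr, mul_one, ← map_mul,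
    fr_fr, map_one, map_one]

theorem order_tau : orderOf tau = 2 := by
  refine orderOf_eq_prime ?_ ?_
  · rw [pow_two, tau_sq]
  · intro h
    have h1 : lift (cj (1 : GL (Fin 3) F4) * fld fr * itr) = lift (fld (1 : F4 ≃+* F4)) := by
      rw [map_one cj, one_mul, map_one fld, map_one]
      exact h
    exact not_graph (by simp) h1

/-- `PSL₃(4).2₁` -/
def K : Subgroup (MulAut T) := twoExt (Inn T) tau (by rw [tau_sq]; exact Subgroup.one_mem _)

theorem comm_fY : Commute (lift (fld fr) : MulAut T) (lift (cj gY)) := by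
  change lift (fld fr) * lift (cj gY) = lift (cj gY) * lift (fld fr)
  rw [← map_mul, fld_cj, map_mul]
  congr 3
  apply Units.ext
  change (gY : M3).map _ = _
  decide +kernel

theorem comm_iX : Commute (lift itr : MulAut T) (lift (cj gX)) := by
  change lift itr * lift (cj gX) = lift (cj gX) * lift itr
  rw [← map_mul, itr_cj, map_mul]
  congr 3
  apply Units.ext
  rw [coe_it]
  decide +kernel

theorem comm_tE : Commute tau (lift (cj gE)) := by
  change lift (fld fr * itr) * lift (cj gE) = lift (cj gE) * lift (fld fr * itr)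
  rw [← map_mul, mul_assoc, itr_cj, ← mul_assoc, fld_cj, mul_assoc, map_mul]
  congr 3
  apply Units.ext
  change (it gE : M3).map _ = _
  rw [coe_it]
  decide +kernel

theorem order_fY : orderOf ((lift (fld fr) : MulAut T) * lift (cj gY)) = 2 * 7 := by
  rw [comm_fY.orderOf_mul_eq_mul_orderOf_of_coprime (by rw [order_fld, order_Y]; norm_num), order_fld,
    order_Y]

theorem order_iX : orderOf ((lift itr : MulAut T) * lift (cj gX)) = 2 * 5 := by
  rw [comm_iX.orderOf_mul_eq_mul_orderOf_of_coprime (by rw [order_itr, order_X]; norm_num), order_itr,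
    order_X]

theorem order_tE : orderOf (tau * lift (cj gE)) = 2 * 3 := by
  rw [comm_tE.orderOf_mul_eq_mul_orderOf_of_coprime (by rw [order_tau, order_E]; norm_num), order_tau,
    order_E]

end Cfsg.Agent.H422.LThree
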