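import Cfsg.Agent.H422.LThreeAut
import Cfsg.Agent.H422.Graph
import Cfsg.Agent.S0243
import Cfsg.Agent.S0249

/-!
# The prime graph of `PSL₃(4).2₁`
-/

set_option autoImplicit false

namespace Cfsg.Agent.H422.Graph

/-- Extensions of degree two. -/
theorem good_ext {K : Type*} [Group K] (N : Subgroup K) (h2 : ∀ x : K, x * x ∈ N)
    (hN : ∀ g ∈ N, ∃ k, Ok k ∧ g ^ k = 1)
    (hinv : ∀ x ∉ N, x * x = 1 → ∀ y ∈ N, x * y = y * x → orderOf y ≠ 5 ∧ orderOf y ≠ 7)
    (hpf : (Nat.card K).primeFactors = {2, 3, 5, 7}) (h6 : ∃ g : K, orderOf g = 2 * 3) : Good K := by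
  have hno : ∀ n : ℕ, ¬ Ok n → (∀ k, Ok k → ¬ n ∣ k) → ∀ g ∈ N, orderOf g ≠ n := by
    intro n _ hk g hg h
    obtain ⟨k, hok, h1⟩ := hN g hg
    exact hk k hok (h ▸ orderOf_dvd_of_pow_eq_one h1)
  have hodd : ∀ g : K, ∀ m : ℕ, orderOf g = 2 * m + 1 → g ∈ N := by
    intro g m hg
    have h3 : g = (g * g) ^ (m + 1) := by
      rw [← pow_two, ← pow_mul, show 2 * (m + 1) = orderOf g + 1 by rw [hg]; ring, pow_succ,
        pow_orderOf_eq_one, one_mul]
    rw [h3]
    exact N.pow_mem (h2 g) _
  have heven : ∀ m : ℕ, m = 5 ∨ m = 7 → ∀ g ∉ N, orderOf g ≠ 2 * m := by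
    intro m hm g hg h
    have hm0 : 0 < m := by omega
    have hmodd : m = 2 * (m / 2) + 1 := by omega
    have e1 : orderOf (g ^ m) = 2 := by
      rw [orderOf_pow_of_dvd hm0.ne' (by rw [h]; exact dvd_mul_left _ _), h]
      exact Nat.mul_div_cancel _ hm0
    have e2 : orderOf (g * g) = m := by
      rw [← pow_two, orderOf_pow_of_dvd two_ne_zero (by rw [h]; exact dvd_mul_right _ _), h]
      exact Nat.mul_div_cancel_left _ two_pos
    have e3 : g ^ m ∉ N := by
      intro h3
      apply hg
      have e4 : g = ((g * g) ^ (m / 2))⁻¹ * g ^ m := by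
        rw [← pow_two, ← pow_mul, eq_inv_mul_iff_mul_eq, ← pow_succ, ← hmodd]
      rw [e4]
      exact N.mul_mem (N.inv_mem (N.pow_mem (h2 g) _)) h3
    have e5 : g ^ m * g ^ m = 1 := by
      rw [← pow_two, ← e1, pow_orderOf_eq_one]
    have e6 := hinv _ e3 e5 (g * g) (h2 g) (by rw [← pow_two, ← pow_add, ← pow_add, add_comm])
    rcases hm with rfl | rfl
    · exact e6.1 e2
    · exact e6.2 e2
  have k10 : ∀ k, Ok k → ¬ 10 ∣ k := fun k h => h.2.1
  have k14 : ∀ k, Ok k → ¬ 14 ∣ k := fun k h => h.2.2.1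
  have k15 : ∀ k, Ok k → ¬ 15 ∣ k := fun k h => h.2.2.2.1
  have k21 : ∀ k, Ok k → ¬ 21 ∣ k := fun k h => h.2.2.2.2.1
  have k35 : ∀ k, Ok k → ¬ 35 ∣ k := fun k h => h.2.2.2.2.2
  refine ⟨hpf, h6, ?_, ?_, ?_, ?_, ?_⟩
  · intro g hg
    by_cases h : g ∈ N
    · exact hno 10 (by decide) k10 g h hg
    · exact heven 5 (Or.inl rfl) g h hg
  · intro g hg
    by_cases h : g ∈ N
    · exact hno 14 (by decide) k14 g h hg
    · exact heven 7 (Or.inr rfl) g h hg
  · intro g hg
    exact hno 15 (by decide) k15 g (hodd g 7 hg) hg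
  · intro g hg
    exact hno 21 (by decide) k21 g (hodd g 10 hg) hg
  · intro g hg
    exact hno 35 (by decide) k35 g (hodd g 17 hg) hg

end Cfsg.Agent.H422.Graph

namespace Cfsg.Agent.H422.LThree

open Matrix Cfsg.Agent.Lib.FieldFour Cfsg.Agent.H422.AutBase
open Cfsg.Agent.ClassicalGeometry.AutPSL.Root
open Cfsg.Agent.ClassicalGeometry.AutPSL.Auto
open Cfsg.Agent.ClassicalGeometry.AutPSL.Main

theorem cube : ∀ z : F4, z ≠ 0 → z ^ 3 = 1 := by decide

theorem center_fixed (A : GL (Fin 3) F4) {S : Matrix.SpecialLinearGroup (Fin 3) F4}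
    (hS : S ∈ Subgroup.center (Matrix.SpecialLinearGroup (Fin 3) F4)) :
    (cj A * fld fr * itr : MulAut (Matrix.SpecialLinearGroup (Fin 3) F4)) S = S := by
  obtain ⟨z, hz, hzS⟩ := Matrix.SpecialLinearGroup.mem_center_iff.1 hS
  rw [Fintype.card_fin] at hz
  have h3 : S * S * S = 1 := by
    apply Subtype.ext
    have e : ((S * S * S : Matrix.SpecialLinearGroup (Fin 3) F4) : M3) = (S : M3) * (S : M3) * (S : M3) := rfl
    refine e.trans ?_
    rw [← hzS, ← map_mul, ← map_mul, ← pow_two, ← pow_succ, hz, map_one]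
    rfl
  have h4 : S⁻¹ = S * S := by
    rw [inv_eq_iff_mul_eq_one, ← mul_assoc]; exact h3
  apply Subtype.ext
  rw [MulAut.mul_apply, MulAut.mul_apply, coe_cj]
  have h5 : (fld fr (itr S) : M3) = scalar (Fin 3) z := by
    have e1 : (itr S : M3) = scalar (Fin 3) (z * z) := by
      rw [coe_itr, h4]
      change ((S : M3) * (S : M3))ᵀ = _
      rw [← hzS, ← map_mul, scalar_apply, diagonal_transpose]
    ext i j
    rw [coe_fld_apply, e1, scalar_apply, scalar_apply]
    by_cases hij : i = j
    · subst hij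
      rw [diagonal_apply_eq, diagonal_apply_eq]
      exact pow_four z
    · rw [diagonal_apply_ne _ hij, diagonal_apply_ne _ hij, map_zero]
  rw [h5, ← (scalar_commute (n := Fin 3) z (Commute.all z) (A : M3)).eq, mul_assoc, ← Units.val_mul,
    mul_inv_cancel, Units.val_one, mul_one, hzS]

/-- an element of order 5 or 7 is not fixed by the automorphisms in the coset of `tau` -/
theorem not_fixed (A : GL (Fin 3) F4) (X : Matrix.SpecialLinearGroup (Fin 3) F4)
    (h : lift (cj A * fld fr * itr) (pr X) = pr X) : orderOf (pr X) ≠ 5 ∧ orderOf (pr X) ≠ 7 := by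
  have key : ∀ k : ℕ, (k = 5 ∨ k = 7) → orderOf (pr X) ≠ k := by
    intro k hk ho
    set θ := cj A * fld fr * itr with hθ
    rw [lift_pr] at h
    obtain ⟨c, hc⟩ := exists_smul_of_pr_eq h
    have hXk : X ^ k ∈ Subgroup.center (Matrix.SpecialLinearGroup (Fin 3) F4) := by
      rw [← pr_eq_one_iff, map_pow, ← ho, pow_orderOf_eq_one]
    have h1 : θ (X ^ k) = X ^ k := center_fixed A hXk
    have h2 : ((X ^ k : Matrix.SpecialLinearGroup (Fin 3) F4) : M3) = c ^ k • (X ^ k : Matrix.SpecialLinearGroup (Fin 3) F4) := by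
      conv_lhs => rw [Matrix.SpecialLinearGroup.coe_pow, hc, smul_pow, ← Matrix.SpecialLinearGroup.coe_pow, ← map_pow, h1]
    have hdet : ((X ^ k : Matrix.SpecialLinearGroup (Fin 3) F4) : M3) ≠ 0 := by
      intro h0
      have := (X ^ k).2
      rw [h0, det_zero] at this
      exact zero_ne_one this
    have hck : c ^ k = 1 := by
      by_contra hne
      apply hdet
      have h3 : (c ^ k - 1) • ((X ^ k : Matrix.SpecialLinearGroup (Fin 3) F4) : M3) = 0 := by
        rw [sub_smul, ← h2, one_smul, sub_self]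
      exact (smul_eq_zero.1 h3).resolve_left (sub_ne_zero.2 hne)
    have hc1 : c = 1 := by
      have e5 : ∀ x : F4, x ^ 5 = 1 → x = 1 := by decide
      have e7 : ∀ x : F4, x ^ 7 = 1 → x = 1 := by decide
      rcases hk with rfl | rfl
      · exact e5 c hck
      · exact e7 c hck
    rw [hc1, one_smul] at hc
    -- traces
    have htr : (X : M3).trace = (adjugate (X : M3)).trace * (adjugate (X : M3)).trace := by
      conv_lhs => rw [hc]
      rw [hθ, MulAut.mul_apply, MulAut.mul_apply, coe_cj, Matrix.trace_mul_cycle, ← Units.val_mul,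
        inv_mul_cancel, Units.val_one, one_mul]
      have e1 : ∀ Y : Matrix.SpecialLinearGroup (Fin 3) F4, (fld fr Y : M3).trace = fr (Y : M3).trace := by
        intro Y
        rw [Matrix.trace, Matrix.trace, map_sum]
        rfl
      rw [e1, coe_itr, trace_transpose, fr_apply, Matrix.SpecialLinearGroup.coe_inv]
    have htr2 : (adjugate (X : M3)).trace = (X : M3).trace * (X : M3).trace := by
      rw [htr, pow_four]
    obtain ⟨m, hm, r, hr⟩ := sl_pow_herm (X : M3) X.2 htr2
    have h5 : X ^ m ∈ Subgroup.center (Matrix.SpecialLinearGroup (Fin 3) F4) :=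
      mem_center_of_scalar (r := r) ((Matrix.SpecialLinearGroup.coe_pow X m).trans hr)
    rw [← pr_eq_one_iff, map_pow] at h5
    have h6 := orderOf_dvd_of_pow_eq_one h5
    rw [ho] at h6
    simp only [List.mem_cons, List.not_mem_nil, or_false] at hm
    rcases hm with rfl | rfl <;> rcases hk with rfl | rfl <;> revert h6 <;> decide
  exact ⟨key 5 (Or.inl rfl), key 7 (Or.inr rfl)⟩

theorem card_T : Nat.card T = 20160 := by
  have h := Cfsg.Agent.S0243.result (F := F4) F4.card 3 (by norm_num)
  have h3 : Nat.gcd 3 (4 - 1) = 3 := by decide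
  rw [h3, Fin.prod_univ_three] at h
  change Nat.card (Matrix.ProjectiveSpecialLinearGroup (Fin 3) F4) = 20160
  generalize Nat.card (Matrix.ProjectiveSpecialLinearGroup (Fin 3) F4) = n at h ⊢
  norm_num at h
  omega

instance simple_T : IsSimpleGroup T := Cfsg.Agent.S0249.result 3 le_rfl

instance finite_T : Finite T := Nat.finite_of_card_ne_zero (by rw [card_T]; norm_num)

theorem center_T : Subgroup.center T = ⊥ := by
  rcases simple_T.eq_bot_or_eq_top_of_normal (Subgroup.center T) inferInstance with h | h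
  · exact h
  · exfalso
    have hc : ∀ x y : T, x * y = y * x := by
      intro x y
      have : y ∈ Subgroup.center T := by rw [h]; exact Subgroup.mem_top _
      exact Subgroup.mem_center_iff.1 this x
    -- `T` commutative
    have h1 : Nat.card T = 20160 := card_T
    have h2 : (Nat.card T).Prime := by
      let _ : CommGroup T := { (inferInstance : Group T) with mul_comm := hc }
      exact IsSimpleGroup.prime_card
    rw [h1] at h2
    revert h2
    norm_num

theorem conj_inj : Function.Injective (MulAut.conj (G := T)) := conj_injective center_T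

theorem card_Inn : Nat.card (Inn T) = 20160 := by
  rw [← card_T]
  exact (Nat.card_congr (MonoidHom.ofInjective conj_inj).toEquiv).symm

theorem finite_aut : Finite (MulAut T) := inferInstance

/-- `tau` times inner is not inner -/
theorem tau_not_mem : tau ∉ Inn T := by
  rintro ⟨x, hx⟩
  obtain ⟨s, rfl⟩ := pr_surjective x
  rw [conj_pr] at hx
  have h1 : lift (cj (Matrix.SpecialLinearGroup.toGL s)⁻¹ * fld fr * itr) = lift (fld (1 : F4 ≃+* F4)) := by
    rw [mul_assoc, map_mul lift, map_one fld, map_one lift, map_inv, map_inv, hx]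
    exact inv_mul_cancel _
  exact not_graph (by simp) h1

theorem card_K : Nat.card K = 40320 := by
  rw [K, card_twoExt tau_not_mem, card_Inn]

/-- **The prime graph of `PSL₃(4).2₁`.** -/
theorem good_K : Cfsg.Agent.H422.Graph.Good K := by
  refine Cfsg.Agent.H422.Graph.good_ext ((Inn T).subgroupOf K) ?_ ?_ ?_ ?_ ?_
  · intro x
    exact (mul_self_mem (N := Inn T) (t := tau) (ht := by rw [tau_sq]; exact Subgroup.one_mem _) x.2 : _)
  · intro g hg
    obtain ⟨k, hk, h⟩ := inn_pow (g := (g : MulAut T)) hg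
    refine ⟨k, ?_, Subtype.ext h⟩
    simp only [List.mem_cons, List.not_mem_nil, or_false] at hk
    rcases hk with rfl | rfl | rfl | rfl <;> decide
  · intro x hx _ y hy hxy
    obtain ⟨n, hn, hxn⟩ := exists_mul_of_mem x.2 hx
    obtain ⟨u, hu⟩ := hn
    obtain ⟨s, rfl⟩ := pr_surjective u
    obtain ⟨u, hu'⟩ := hy
    obtain ⟨X, rfl⟩ := pr_surjective u
    have h1 : (x : MulAut T) * MulAut.conj (pr X) = MulAut.conj (pr X) * (x : MulAut T) := by
      rw [hu']
      exact congrArg Subtype.val hxy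
    rw [mul_conj] at h1
    have h2 := conj_inj (mul_right_cancel h1)
    have h3 : (x : MulAut T) = lift (cj (Matrix.SpecialLinearGroup.toGL s) * fld fr * itr) := by
      rw [hxn, ← hu, conj_pr, mul_assoc, map_mul lift]
      rfl
    rw [h3] at h2
    have h4 : orderOf y = orderOf (pr X) := by
      rw [← Subgroup.orderOf_coe, ← orderOf_injective _ conj_inj (pr X), hu']
      rfl
    rw [h4]
    exact not_fixed _ X h2
  · rw [card_K]
    decide +kernel
  · refine ⟨⟨tau * lift (cj gE), ?_⟩, ?_⟩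
    · refine K.mul_mem self_mem_twoExt (Or.inl ?_)
      exact inn_of_det (by decide +kernel)
    · rw [← Subgroup.orderOf_coe]
      exact order_tE

end Cfsg.Agent.H422.LThree
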