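import Cfsg.Agent.H422.LTwoElts
import Cfsg.Agent.H422.LThreeGood
import Cfsg.Agent.ClassicalGeometry.PSL2Basic

/-!
# Almost simple groups over `PSL₂(49)` with the prime graph of `A₇`

`eq_cases`: a subgroup of `Aut(PSL₂(49))` containing the inner automorphisms without elements of
orders 10, 14 is `PSL₂(49)` or `M(49)`.
-/

set_option autoImplicit false

namespace Cfsg.Agent.H422.LTwo

open Matrix Cfsg.Agent.H422.AutBase Cfsg.Agent.H422.Graph
open Cfsg.Agent.ClassicalGeometry.AutPSL.Root
open Cfsg.Agent.ClassicalGeometry.AutPSL.Auto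
open Cfsg.Agent.ClassicalGeometry.AutPSL.Main

variable {F : Type*} [Field F]

/-- `χ(det A)` -/
def chi (A : GL (Fin 2) F) : F := (A : Matrix (Fin 2) (Fin 2) F).det ^ 24

theorem chi_mul (A B : GL (Fin 2) F) : chi (A * B) = chi A * chi B := by
  rw [chi, chi, chi, Units.val_mul, det_mul, mul_pow]

theorem chi_one : chi (1 : GL (Fin 2) F) = 1 := by
  rw [chi, Units.val_one, det_one, one_pow]

theorem det_ne (A : GL (Fin 2) F) : (A : Matrix (Fin 2) (Fin 2) F).det ≠ 0 := by
  intro h
  have h1 : ((A * A⁻¹ : GL (Fin 2) F) : Matrix (Fin 2) (Fin 2) F).det = 1 := by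
    rw [mul_inv_cancel, Units.val_one, det_one]
  rw [Units.val_mul, det_mul, h, zero_mul] at h1
  exact zero_ne_one h1

variable [Fintype F] (hF : Fintype.card F = 49) {φ : F ≃+* F} (hφ : ∀ x, φ x = x ^ 7)

include hF

theorem chi_cases (A : GL (Fin 2) F) : chi A = 1 ∨ chi A = -1 := pow_24 hF (det_ne A)

theorem chi_inv (A : GL (Fin 2) F) : chi A⁻¹ = chi A := by
  have h := chi_mul A A⁻¹
  rw [mul_inv_cancel, chi_one] at h
  rcases chi_cases hF A with h1 | h1
  · rw [h1, one_mul] at h; rw [h1, ← h]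
  · rw [h1] at h; rw [h1]; linear_combination h

theorem neg_one_ne : (-1 : F) ≠ 1 := by
  intro h
  apply two_ne hF
  linear_combination -h

theorem mem_inn_iff {A : GL (Fin 2) F} : lift (cj A) ∈ Inn (TT F) ↔ chi A = 1 := by
  constructor
  · intro h
    obtain ⟨r, hr⟩ := det_of_mem_inn h
    have : IsSquare (A : Matrix (Fin 2) (Fin 2) F).det := ⟨r, by rw [hr, Fintype.card_fin, pow_two]⟩
    exact (sq_iff hF (det_ne A)).1 this
  · intro h
    obtain ⟨r, hr⟩ := (sq_iff hF (det_ne A)).2 h
    refine mem_inn (r := r) ?_ ?_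
    · rintro rfl
      rw [zero_mul] at hr
      exact det_ne A hr
    · rw [Fintype.card_fin, pow_two, hr]

include hφ in
theorem chi_map (A : GL (Fin 2) F) :
    chi (Matrix.GeneralLinearGroup.map (φ : F →+* F) A) = chi A := by
  have h1 : ((Matrix.GeneralLinearGroup.map (φ : F →+* F) A : GL (Fin 2) F) : Matrix (Fin 2) (Fin 2) F).det =
      φ (A : Matrix (Fin 2) (Fin 2) F).det := by
    change ((φ : F →+* F).mapMatrix (A : Matrix (Fin 2) (Fin 2) F)).det = _
    rw [← RingHom.map_det]
    rfl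
  rw [chi, h1, hφ, ← pow_mul, mul_comm, pow_mul]
  change chi A ^ 7 = chi A
  rcases chi_cases hF A with h | h <;> rw [h] <;> ring

section main

variable {H : Subgroup (MulAut (TT F))} (hI : Inn (TT F) ≤ H)
include hI hφ

theorem cases_H (h10 : ∀ g ∈ H, orderOf g ≠ 2 * 5) (h14 : ∀ g ∈ H, orderOf g ≠ 2 * 7)
    {α : MulAut (TT F)} (hα : α ∈ H) :
    α ∈ Inn (TT F) ∨ ∃ A : GL (Fin 2) F, chi A = -1 ∧ α = lift (cj A * fld φ) := by
  have := charP hF
  obtain ⟨A, σ, rfl⟩ := surj_two 7 α
  rcases eq_fr hF hφ σ with rfl | hσ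
  · left
    rw [map_one fld, mul_one] at hα ⊢
    rcases chi_cases hF A with h | h
    · exact (mem_inn_iff hF).2 h
    · exfalso
      obtain ⟨M, hM, ho⟩ := exists_ten hF
      apply h10 _ _ ho
      have h1 : lift (cj M) = lift (cj (M * A⁻¹)) * lift (cj A) := by
        rw [← map_mul lift, ← map_mul cj, inv_mul_cancel_right]
      rw [h1]
      refine H.mul_mem (hI ((mem_inn_iff hF).2 ?_)) hα
      rw [chi_mul, chi_inv hF, h, show chi M = -1 from hM]
      ring
  · rw [hσ] at hα ⊢
    rcases chi_cases hF A with h | h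
    · exfalso
      have h1 : lift (fld φ) ∈ H := by
        have : lift (fld φ) = (lift (cj A))⁻¹ * lift (cj A * fld φ) := by
          rw [map_mul lift, inv_mul_cancel_left]
        rw [this]
        exact H.mul_mem (H.inv_mem (hI ((mem_inn_iff hF).2 h))) hα
      exact h14 _ (H.mul_mem h1 (hI (conj_mem _))) (order_fourteen hF hφ)
    · exact Or.inr ⟨A, h, rfl⟩

end main

omit hF [Fintype F] in
/-- square of an element in the coset -/
theorem coset_mul (φ : F ≃+* F) (A B : GL (Fin 2) F) :
    (cj A * fld φ) * (cj B * fld φ) =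
      cj (A * Matrix.GeneralLinearGroup.map (φ : F →+* F) B) * fld (φ * φ) := by
  rw [mul_assoc, ← mul_assoc (fld φ), fld_cj, map_mul cj, map_mul fld]
  simp only [mul_assoc]

include hφ in
theorem coset_mul' (A B : GL (Fin 2) F) :
    lift (cj A * fld φ) * lift (cj B * fld φ) =
      lift (cj (A * Matrix.GeneralLinearGroup.map (φ : F →+* F) B)) := by
  rw [← map_mul lift, coset_mul, fr_fr hF hφ, map_one, mul_one]

include hφ in
theorem coset_mul_mem {A B : GL (Fin 2) F} (hA : chi A = -1) (hB : chi B = -1) :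
    lift (cj A * fld φ) * lift (cj B * fld φ) ∈ Inn (TT F) := by
  rw [coset_mul' hF hφ, mem_inn_iff hF, chi_mul, chi_map hF hφ, hA, hB]
  ring

include hφ in
theorem coset_not_mem {A : GL (Fin 2) F} : lift (cj A * fld φ) ∉ Inn (TT F) := by
  rintro ⟨x, hx⟩
  obtain ⟨s, rfl⟩ := pr_surjective x
  rw [conj_pr] at hx
  have h1 : lift (cj ((Matrix.SpecialLinearGroup.toGL s)⁻¹ * A) * fld φ) = lift (fld (1 : F ≃+* F)) := by
    rw [map_mul cj, mul_assoc, map_mul lift, ← hx, map_one fld, map_one lift, map_inv, map_inv,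
      inv_mul_cancel]
  exact fr_ne_one hF hφ (injective_aux h1).2

include hφ in
/-- no involutions in the coset -/
theorem coset_no_inv {A : GL (Fin 2) F} (hA : chi A = -1) :
    lift (cj A * fld φ) * lift (cj A * fld φ) ≠ 1 := by
  intro h
  rw [coset_mul' hF hφ] at h
  obtain ⟨c, hc⟩ := lift_cj_eq_one h
  set B := Matrix.GeneralLinearGroup.map (φ : F →+* F) A with hB
  rw [Units.val_mul] at hc
  have hBm : (B : Matrix (Fin 2) (Fin 2) F) = (A : Matrix (Fin 2) (Fin 2) F).map φ := rfl
  -- `B * A` is the same scalar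
  have h1 : (B : Matrix (Fin 2) (Fin 2) F) * (A : Matrix (Fin 2) (Fin 2) F) = scalar (Fin 2) c := by
    have e1 : (A : Matrix (Fin 2) (Fin 2) F) * ((B : Matrix (Fin 2) (Fin 2) F) * (A : Matrix (Fin 2) (Fin 2) F)) =
        (A : Matrix (Fin 2) (Fin 2) F) * scalar (Fin 2) c := by
      rw [← mul_assoc, ← hc]
      exact (scalar_commute (n := Fin 2) c (Commute.all c) (A : Matrix (Fin 2) (Fin 2) F)).eq
    exact (A.isUnit.mul_left_cancel e1)
  have h2 : (B : Matrix (Fin 2) (Fin 2) F) * (A : Matrix (Fin 2) (Fin 2) F) = scalar (Fin 2) (φ c) := by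
    have e1 : (scalar (Fin 2) c).map φ = ((A : Matrix (Fin 2) (Fin 2) F) * (B : Matrix (Fin 2) (Fin 2) F)).map φ :=
      congrArg (fun M : Matrix (Fin 2) (Fin 2) F => M.map φ) hc
    have e2 : ((A : Matrix (Fin 2) (Fin 2) F) * (B : Matrix (Fin 2) (Fin 2) F)).map φ =
        (A : Matrix (Fin 2) (Fin 2) F).map φ * (B : Matrix (Fin 2) (Fin 2) F).map φ :=
      Matrix.map_mul (f := (φ : F →+* F))
    have e3 : (B : Matrix (Fin 2) (Fin 2) F).map φ = (A : Matrix (Fin 2) (Fin 2) F) := by
      rw [hBm]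
      ext i j
      change φ (φ ((A : Matrix (Fin 2) (Fin 2) F) i j)) = _
      have := congrArg (fun σ : F ≃+* F => σ ((A : Matrix (Fin 2) (Fin 2) F) i j)) (fr_fr hF hφ)
      exact this
    rw [e2, e3, ← hBm] at e1
    rw [← e1, scalar_apply, scalar_apply]
    ext i j
    by_cases hij : i = j
    · subst hij; simp
    · simp [hij]
  have h3 : c = φ c := by
    rw [h1] at h2
    have := congrFun (congrFun h2 0) 0
    simpa using this
  have hc0 : c ≠ 0 := by
    intro h0
    have e1 := congrArg Matrix.det h1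
    rw [det_mul, scalar_apply, det_diagonal, h0, Finset.prod_const, Finset.card_univ, Fintype.card_fin,
      zero_pow two_ne_zero] at e1
    exact mul_ne_zero (det_ne B) (det_ne A) e1
  have h4 : c ^ 6 = 1 := by
    rw [hφ] at h3
    have : c * c ^ 6 = c * 1 := by rw [mul_one, ← pow_succ']; exact h3.symm
    exact mul_left_cancel₀ hc0 this
  have h5 : (A : Matrix (Fin 2) (Fin 2) F).det ^ 8 = c ^ 2 := by
    have e1 := congrArg Matrix.det h1
    rw [det_mul, scalar_apply, det_diagonal, Finset.prod_const, Finset.card_univ, Fintype.card_fin] at e1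
    rw [← e1]
    have e2 : (B : Matrix (Fin 2) (Fin 2) F).det = (A : Matrix (Fin 2) (Fin 2) F).det ^ 7 := by
      rw [← hφ]
      change ((φ : F →+* F).mapMatrix (A : Matrix (Fin 2) (Fin 2) F)).det = _
      rw [← RingHom.map_det]
      rfl
    rw [e2, ← pow_succ]
  have h6 : chi A = 1 := by
    rw [chi, show 24 = 8 * 3 from rfl, pow_mul, h5, ← pow_mul]
    exact h4
  rw [hA] at h6
  exact neg_one_ne hF h6

/-- the group `M(49)` -/
def KK (A : GL (Fin 2) F) (hA : chi A = -1) : Subgroup (MulAut (TT F)) :=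
  twoExt (Inn (TT F)) (lift (cj A * fld φ)) (coset_mul_mem hF hφ hA hA)

include hφ in
/-- **Almost simple groups with socle `PSL₂(49)`.** -/
theorem eq_cases {A : GL (Fin 2) F} (hA : chi A = -1) {H : Subgroup (MulAut (TT F))} (hI : Inn (TT F) ≤ H)
    (h10 : ∀ g ∈ H, orderOf g ≠ 2 * 5) (h14 : ∀ g ∈ H, orderOf g ≠ 2 * 7) :
    H = Inn (TT F) ∨ H = KK hF hφ A hA := by
  by_cases hle : H ≤ Inn (TT F)
  · exact Or.inl (le_antisymm hle hI)
  right
  obtain ⟨g, hg, hgn⟩ := SetLike.not_le_iff_exists.1 hle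
  apply le_antisymm
  · intro α hα
    rcases cases_H hF hφ hI h10 h14 hα with h | ⟨B, hB, rfl⟩
    · exact Or.inl h
    · exact Or.inr (coset_mul_mem hF hφ hB hA)
  · obtain ⟨B, hB, rfl⟩ := (cases_H hF hφ hI h10 h14 hg).resolve_left hgn
    have h1 : lift (cj A * fld φ) ∈ H := by
      have h2 : lift (cj A * fld φ) = lift (cj A * fld φ) * lift (cj B * fld φ) * (lift (cj B * fld φ))⁻¹ := by
        group
      rw [h2]
      exact H.mul_mem (hI (coset_mul_mem hF hφ hA hB)) (H.inv_mem hg)
    intro x hx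
    rcases hx with h | h
    · exact hI h
    · have h3 : x = (x * lift (cj A * fld φ)) * (lift (cj A * fld φ))⁻¹ := by group
      rw [h3]
      exact H.mul_mem (hI h) (H.inv_mem h1)

theorem simple_T : IsSimpleGroup (TT F) :=
  Matrix.ProjectiveSpecialLinearGroup.rank_two_simple (by
    rw [Nat.card_eq_fintype_card, hF]; norm_num)

theorem card_T : Nat.card (TT F) = 58800 := by
  have h := Cfsg.Agent.ClassicalGeometry.PSL2Basic.card_PSL2_odd (F := F) (by rw [hF]; decide)
  rw [hF] at h
  change Nat.card (Matrix.ProjectiveSpecialLinearGroup (Fin 2) F) = 58800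
  generalize Nat.card (Matrix.ProjectiveSpecialLinearGroup (Fin 2) F) = n at h ⊢
  norm_num at h
  omega

theorem finite_T : Finite (TT F) := Nat.finite_of_card_ne_zero (by rw [card_T hF]; norm_num)

theorem center_T : Subgroup.center (TT F) = ⊥ := by
  have := simple_T hF
  rcases (simple_T hF).eq_bot_or_eq_top_of_normal (Subgroup.center (TT F)) inferInstance with h | h
  · exact h
  · exfalso
    have := finite_T hF
    have hc : ∀ x y : TT F, x * y = y * x := by
      intro x y
      have : y ∈ Subgroup.center (TT F) := by rw [h]; exact Subgroup.mem_top _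
      exact Subgroup.mem_center_iff.1 this x
    have h2 : (Nat.card (TT F)).Prime := by
      let _ : CommGroup (TT F) := { (inferInstance : Group (TT F)) with mul_comm := hc }
      exact IsSimpleGroup.prime_card
    rw [card_T hF] at h2
    revert h2
    norm_num

theorem conj_inj : Function.Injective (MulAut.conj (G := TT F)) := conj_injective (center_T hF)

theorem card_Inn : Nat.card (Inn (TT F)) = 58800 := by
  rw [← card_T hF]
  exact (Nat.card_congr (MonoidHom.ofInjective (conj_inj hF)).toEquiv).symm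

theorem finite_aut : Finite (MulAut (TT F)) := by
  have := finite_T hF
  infer_instance

theorem card_KK {A : GL (Fin 2) F} (hA : chi A = -1) : Nat.card (KK hF hφ A hA) = 117600 := by
  have := finite_aut hF
  rw [KK, card_twoExt (coset_not_mem hF hφ), card_Inn hF]

/-- the prime graph of `PSL₂(49)` -/
theorem good_T : Good (TT F) := by
  refine good_of_pow ?_ (exists_six hF) (psl_pow hF)
  rw [card_T hF]
  decide +kernel

/-- **The prime graph of `M(49)`.** -/
theorem good_KK {A : GL (Fin 2) F} (hA : chi A = -1) : Good (KK hF hφ A hA) := by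
  refine good_ext ((Inn (TT F)).subgroupOf (KK hF hφ A hA)) ?_ ?_ ?_ ?_ ?_
  · intro x
    exact (mul_self_mem (N := Inn (TT F)) (t := lift (cj A * fld φ)) (ht := coset_mul_mem hF hφ hA hA) x.2 : _)
  · intro g hg
    obtain ⟨u, hu⟩ := (hg : (g : MulAut (TT F)) ∈ Inn (TT F))
    obtain ⟨k, hk, h⟩ := psl_pow hF u
    have hu' : MulAut.conj u = (g : MulAut (TT F)) := hu
    refine ⟨k, hk, Subtype.ext ?_⟩
    rw [SubmonoidClass.coe_pow, ← hu', ← map_pow, h, map_one]
    rfl
  · intro x hx hxx
    exfalso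
    obtain ⟨n, hn, hxn⟩ := exists_mul_of_mem x.2 hx
    obtain ⟨u, hu⟩ := hn
    obtain ⟨s, rfl⟩ := pr_surjective u
    have h3 : (x : MulAut (TT F)) = lift (cj (Matrix.SpecialLinearGroup.toGL s * A) * fld φ) := by
      rw [hxn, ← hu, conj_pr, ← map_mul lift, map_mul cj, mul_assoc]
    refine coset_no_inv hF hφ (A := Matrix.SpecialLinearGroup.toGL s * A) ?_ ?_
    · rw [chi_mul, hA, (mem_inn_iff hF).1 (by rw [← conj_pr]; exact conj_mem _), one_mul]
    · rw [← h3]
      exact congrArg Subtype.val hxx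
  · rw [card_KK hF hφ hA]
    decide +kernel
  · obtain ⟨g, hg⟩ := exists_six hF
    refine ⟨⟨MulAut.conj g, Or.inl (conj_mem _)⟩, ?_⟩
    rw [← Subgroup.orderOf_coe, ← hg]
    exact orderOf_injective _ (conj_inj hF) g

/-- **No modules.** -/
theorem eq_zero {V : Type*} [AddCommGroup V] [DistribMulAction (TT F) V] (h7 : Fpf (TT F) V 7)
    (hp : ∀ v : V, 7 • v = 0 → v = 0) (v : V) : v = 0 := by
  obtain ⟨r, hr⟩ := exists_root hF
  obtain ⟨φ, hφ⟩ := exists_fr hF
  have h7' := seven hF
  have hφr : φ r = -r := by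
    rw [hφ]
    linear_combination (r ^ 5 + 5 * r ^ 3 + 25 * r) * hr + 18 * r * h7'
  have hr0 : r ≠ 0 := by
    rintro rfl
    have : (1 : F) = 0 := by linear_combination 3 * h7' + 4 * hr
    exact one_ne_zero this
  have hn : ∀ j : ℕ, (1 : F) + j * r ≠ 0 := by
    intro j h
    have h1 : (1 : F) - j * r = 0 := by
      have e1 := congrArg φ h
      rw [map_add, map_mul, map_one, map_natCast, hφr, map_zero] at e1
      linear_combination e1
    apply two_ne hF
    linear_combination h + h1
  refine eq_zero_of_noncyclic (r := 7) (by norm_num) h7 hp (x := pr (low (1 : F))) (y := pr (low r)) ?_ ?_ ?_ v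
  · change _ * _ = _ * _
    rw [← map_mul, ← map_mul, low_mul, low_mul, add_comm]
  · exact order_pr_low hF hr0
  · intro j _
    rw [← map_pow, low_pow, ← map_mul, low_mul]
    exact order_pr_low hF (hn j)

end Cfsg.Agent.H422.LTwo
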